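import Cfsg.Agent.H232.Ux.UpBm

/-!
# UX (S5716), UT2b in the form used by UM1 (helper232)
-/

set_option autoImplicit false

namespace Cfsg.Agent.H232.Ux

open Module Cfsg.Agent.H847.Bs

/-- UT2b as in the request of helper541 -/
theorem ut2b : ∃ C : ℝ, ∀ (F X : Type) [Field F] [Finite F] [AddCommGroup X] [Module F X] [Module.Finite F X] (Φ : Frm F X),
    (IsSp Φ ∨ (∃ r, IsHerm r Φ) ∨ ∃ Q : QuadraticForm F X, (frmQ Q).Nd ∧ Φ = frmQ Q) → 2 ≤ finrank F X →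
    (Nat.card {s : X ≃ₗ[F] X // s ∈ Φ.Iso ∧ Irr s ⊤} : ℝ) * finrank F X ≤ C * Nat.card Φ.Iso := by
  refine ⟨1, fun F X _ _ _ _ _ Φ h _ => ?_⟩
  have h1 := card_Bm_le (Φ := Φ) (by
    rcases h with h | h | ⟨Q, hQ, rfl⟩
    · exact Or.inl h
    · exact Or.inr (Or.inl h)
    · exact Or.inr (Or.inr ⟨Q, hQ, rfl⟩))
  rw [one_mul, mul_comm]
  exact_mod_cast h1

end Cfsg.Agent.H232.Ux
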