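import Cfsg.Agent.H232.Ux.Adj

/-!
# UX (S5716), UT2b: upper bound for the number of irreducible isometries (helper232)

`card_Bm_le` : `dim V * |Bm| ≤ |Iso|` for every nondegenerate space of dimension at least two (symplectic, hermitian, quadratic).
-/

set_option autoImplicit false
set_option linter.unusedSectionVars false

namespace Cfsg.Agent.H232.Ux

open Module Polynomial Cfsg.Agent.H847.Bs Cfsg.Agent.H881.Bs

theorem card_roots_le {L : Type*} [Field L] {n : ℕ} (hn : 0 < n) (a : L) : Nat.card {x : L // x ^ n = a} ≤ n := by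
  classical
  have h1 : Nat.card {x : L // x ^ n = a} = (nthRoots n a).toFinset.card := by
    rw [← Nat.card_eq_finsetCard]
    exact Nat.card_congr (Equiv.subtypeEquivRight fun x => by rw [Multiset.mem_toFinset, mem_nthRoots hn])
  rw [h1]
  exact (Multiset.toFinset_card_le _).trans (card_nthRoots n a)

section

variable {F V : Type*} [Field F] [Finite F] [AddCommGroup V] [Module F V] [FiniteDimensional F V]
  {L : Type*} [Field L] [Finite L] [Algebra F L] {Φ : Frm F V} {ε : F} {r : ℕ}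

/-- functionals on `L` -/
theorem exists_trace_eq (l : L →ₗ[F] F) : ∃ κ : L, ∀ a, l a = Algebra.trace F L (κ * a) := by
  have hfdL : FiniteDimensional F L := Module.Finite.of_finite
  have h1 := traceForm_nondegenerate F L
  obtain ⟨κ, hκ⟩ := ((Algebra.traceForm F L).toDual h1).surjective l
  refine ⟨κ, fun a => ?_⟩
  rw [← hκ, LinearMap.BilinForm.toDual_def, Algebra.traceForm_apply]

theorem eq_of_trace {x y : L} (h : ∀ b, Algebra.trace F L (x * b) = Algebra.trace F L (y * b)) : x = y := by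
  have hfdL : FiniteDimensional F L := Module.Finite.of_finite
  by_contra hne
  obtain ⟨z, hz⟩ := exists_trace_ne (F := F) (sub_ne_zero.2 hne)
  apply hz
  rw [sub_mul, map_sub, h, sub_self]

/-- **The form of an irreducible isometry.** -/
theorem exists_kappa (hΦ : Ty Φ ε r) (h2 : 2 ≤ finrank F L) {s : V ≃ₗ[F] V} (hs : s ∈ Φ.Iso) (e : V ≃ₗ[F] L)
    {u : L} (hu : ∀ v, e (s v) = u * e v) (hg : Gen F u) :
    ∃ (Q : ℕ) (κ : L), Q ^ 2 = Nat.card L ∧ u ^ (Q + 1) = 1 ∧ κ ≠ 0 ∧ κ ^ Q = algebraMap F L ε * κ ∧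
      ∀ a b, Φ.B (e.symm a) (e.symm b) = Algebra.trace F L (κ * (b ^ Q * a)) := by
  have hfdL : FiniteDimensional F L := Module.Finite.of_finite
  obtain ⟨σ, Q, hQ, hσ, hσF, hσu⟩ := exists_sigma hΦ h2 hs e hu hg
  have hu0 : u ≠ 0 := by
    rintro rfl
    have h3 : e (s (e.symm 1)) = 0 := by rw [hu, zero_mul]
    rw [LinearEquiv.map_eq_zero_iff, LinearEquiv.map_eq_zero_iff, LinearEquiv.map_eq_zero_iff] at h3
    exact one_ne_zero h3
  have hadj : ∀ c a b : L, Φ.B (e.symm a) (e.symm (c * b)) = Φ.B (e.symm (σ c * a)) (e.symm b) := by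
    refine hg.mem (fun c => ∀ a b : L, Φ.B (e.symm a) (e.symm (c * b)) = Φ.B (e.symm (σ c * a)) (e.symm b)) ?_ ?_ ?_ ?_
    · intro c a b
      rw [hσF, ← Algebra.smul_def, ← Algebra.smul_def, map_smul, map_smul, Φ.smul_left, Φ.smul_right, hΦ.s]
    · intro a b
      have h3 : s (e.symm (u⁻¹ * a)) = e.symm a := by
        apply e.injective
        rw [hu, e.apply_symm_apply, e.apply_symm_apply, ← mul_assoc, mul_inv_cancel₀ hu0, one_mul]
      have h4 : s (e.symm b) = e.symm (u * b) := by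
        apply e.injective
        rw [hu, e.apply_symm_apply, e.apply_symm_apply]
      rw [hσu, ← h4, ← h3]
      exact hs.1 _ _
    · intro c c' hc hc' a b
      rw [add_mul, map_add, Φ.add_right, hc, hc', map_add σ, add_mul, map_add, Φ.add_left]
    · intro c c' hc hc' a b
      rw [mul_assoc, hc, hc', map_mul σ, ← mul_assoc, mul_comm (σ c')]
  let l : L →ₗ[F] F :=
    { toFun := fun a => Φ.B (e.symm a) (e.symm 1)
      map_add' := fun a b => by rw [map_add, Φ.add_left]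
      map_smul' := fun c a => by rw [map_smul, Φ.smul_left, RingHom.id_apply, smul_eq_mul] }
  obtain ⟨κ, hκ⟩ := exists_trace_eq l
  have hκ' : ∀ a, Φ.B (e.symm a) (e.symm 1) = Algebra.trace F L (κ * a) := hκ
  have hB : ∀ a b, Φ.B (e.symm a) (e.symm b) = Algebra.trace F L (κ * (σ b * a)) := by
    intro a b
    have h3 := hadj b a 1
    rw [mul_one] at h3
    rw [h3, hκ']
  have hκ0 : κ ≠ 0 := by
    rintro rfl
    have h3 := hΦ.nd (e.symm 1) (fun y => by
      have h4 := hB 1 (e y)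
      rw [e.symm_apply_apply, zero_mul, map_zero] at h4
      exact h4)
    rw [LinearEquiv.map_eq_zero_iff] at h3
    exact one_ne_zero h3
  have htr : ∀ x, Algebra.trace F L (σ x) = Algebra.trace F L x ^ r := by
    intro x
    apply (algebraMap F L).injective
    rw [← hσF, FiniteField.algebraMap_trace_eq_sum_pow, FiniteField.algebraMap_trace_eq_sum_pow, map_sum]
    exact Finset.sum_congr rfl fun i _ => (map_pow _ _ _).symm
  have hσσ : ∀ x, σ (σ x) = x := by
    intro x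
    have := Fintype.ofFinite L
    rw [hσ, hσ, ← pow_mul, ← pow_two, hQ, Nat.card_eq_fintype_card, FiniteField.pow_card]
  have hεε : algebraMap F L ε * algebraMap F L ε = 1 := by
    rcases hΦ.eps with h | h
    · rw [h, map_one, one_mul]
    · rw [h, map_neg, map_one]; ring
  have hsym : κ = algebraMap F L ε * σ κ := by
    apply eq_of_trace (F := F)
    intro b
    have h3 := hΦ.symm (e.symm 1) (e.symm b)
    rw [hB, hB, mul_one, map_one, one_mul, ← htr, map_mul σ, hσσ] at h3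
    rw [h3, mul_assoc, ← Algebra.smul_def, map_smul, smul_eq_mul]
  refine ⟨Q, κ, hQ, ?_, hκ0, ?_, fun a b => ?_⟩
  · rw [pow_succ, ← hσ, hσu, inv_mul_cancel₀ hu0]
  · rw [← hσ]
    conv_rhs => rw [hsym]
    rw [← mul_assoc, hεε, one_mul]
  · rw [hB, hσ]

/-- two identifications with the same form and the same element differ by an isometry -/
theorem mem_iso_of_eq (hΦ : Ty Φ ε r) (h2 : 2 ≤ finrank F V) {s s' : V ≃ₗ[F] V} (hs : s ∈ Φ.Bm) (hs' : s' ∈ Φ.Iso)
    (e e' : V ≃ₗ[F] L) {u : L} (hu : ∀ v, e (s v) = u * e v) (hu' : ∀ v, e' (s' v) = u * e' v)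
    (hB : ∀ a b, Φ.B (e.symm a) (e.symm b) = Φ.B (e'.symm a) (e'.symm b)) : e ≪≫ₗ e'.symm ∈ Φ.Iso := by
  have hBg : ∀ x y, Φ.B (e'.symm (e x)) (e'.symm (e y)) = Φ.B x y := by
    intro x y
    rw [← hB, e.symm_apply_apply, e.symm_apply_apply]
  refine ⟨fun x y => hBg x y, fun x => ?_⟩
  show Φ.q (e'.symm (e x)) = Φ.q x
  rcases hΦ.q with hq | ⟨hq1, hq2⟩
  · rw [hq, hq]
  · let D : V → F := fun x => Φ.q (e'.symm (e x)) - Φ.q x
    have hD1 : ∀ x y, D (x + y) = D x + D y := by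
      intro x y
      show Φ.q (e'.symm (e (x + y))) - Φ.q (x + y) = (Φ.q (e'.symm (e x)) - Φ.q x) + (Φ.q (e'.symm (e y)) - Φ.q y)
      rw [map_add, map_add, hq1, hq1, hBg]
      ring
    have hD2 : ∀ (a : F) (x), D (a • x) = a ^ 2 * D x := by
      intro a x
      show Φ.q (e'.symm (e (a • x))) - Φ.q (a • x) = a ^ 2 * (Φ.q (e'.symm (e x)) - Φ.q x)
      rw [map_smul, map_smul, hq2, hq2]
      ring
    have hD3 : ∀ x, D (s x) = D x := by
      intro x
      show Φ.q (e'.symm (e (s x))) - Φ.q (s x) = Φ.q (e'.symm (e x)) - Φ.q x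
      have h3 : e'.symm (e (s x)) = s' (e'.symm (e x)) := by
        apply e'.injective
        rw [e'.apply_symm_apply, hu', e'.apply_symm_apply, hu]
      rw [h3, hs'.2, hs.1.2]
    let K : Submodule F V :=
      { carrier := {x | D x = 0}
        add_mem' := fun {x y} hx hy => by
          have hx' : D x = 0 := hx
          have hy' : D y = 0 := hy
          show D (x + y) = 0
          rw [hD1, hx', hy', add_zero]
        zero_mem' := by
          show D 0 = 0
          have h3 := hD2 0 0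
          rw [zero_smul, zero_pow two_ne_zero, zero_mul] at h3
          exact h3
        smul_mem' := fun a x hx => by
          have hx' : D x = 0 := hx
          show D (a • x) = 0
          rw [hD2, hx', mul_zero] }
    rcases hs.2.min K le_top (fun x hx => by
      have hx' : D x = 0 := hx
      show D (s x) = 0
      rw [hD3, hx']) with h3 | h3
    · exfalso
      have hinj : Function.Injective D := by
        intro x y hxy
        have h4 : x - y ∈ K := by
          show D (x - y) = 0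
          have h5 := hD1 (x - y) y
          rw [sub_add_cancel, hxy] at h5
          exact right_eq_add.1 h5
        rw [h3, Submodule.mem_bot, sub_eq_zero] at h4
        exact h4
      have h4 := Nat.card_le_card_of_injective D hinj
      rw [Module.natCard_eq_pow_finrank (K := F) (V := V)] at h4
      have h5 : 1 < Nat.card F := Finite.one_lt_card
      have h6 : Nat.card F ^ 2 ≤ Nat.card F ^ finrank F V := Nat.pow_le_pow_right h5.le h2
      nlinarith
    · have h4 : x ∈ K := by rw [h3]; exact Submodule.mem_top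
      have h5 : Φ.q (e'.symm (e x)) - Φ.q x = 0 := h4
      exact sub_eq_zero.1 h5

/-- the counting argument -/
theorem card_Bm_le_aux (hΦ : Ty Φ ε r) (h2 : 2 ≤ finrank F V) (hL : finrank F L = finrank F V) :
    finrank F V * Nat.card Φ.Bm ≤ Nat.card Φ.Iso := by
  classical
  have hfdL : FiniteDimensional F L := Module.Finite.of_finite
  have hVfin : Finite V := Module.finite_of_finite F
  have hfin : Finite (V ≃ₗ[F] V) := finite_equiv' F V
  have hfin' : Finite (V ≃ₗ[F] L) := Finite.of_injective (fun g : V ≃ₗ[F] L => (g : V → L)) DFunLike.coe_injective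
  have h2L : 2 ≤ finrank F L := by rw [hL]; exact h2
  rcases (Φ.Bm).eq_empty_or_nonempty with hem | ⟨s₀, hs₀⟩
  · rw [hem]; simp
  obtain ⟨Q, hQ⟩ : ∃ Q : ℕ, Q ^ 2 = Nat.card L := by
    obtain ⟨e, u, hu⟩ := exists_frame hL hs₀.2
    obtain ⟨Q, κ, hQ, -⟩ := exists_kappa hΦ h2L hs₀.1 e hu (gen_of_frame hs₀.2 e u hu)
    exact ⟨Q, hQ⟩
  have hL1 : 1 < Nat.card L := Finite.one_lt_card
  have hQ2 : 2 ≤ Q := by
    by_contra hlt
    have h3 : Q ≤ 1 := by omega
    have h4 : Q ^ 2 ≤ 1 ^ 2 := Nat.pow_le_pow_left h3 2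
    omega
  have hex : ∀ z : {z : (V ≃ₗ[F] V) × (V ≃ₗ[F] L) // z.1 ∈ Φ.Bm ∧ ∃ u : L, ∀ v, z.2 (z.1 v) = u * z.2 v},
      ∃ c : L × L, (∀ v, z.1.2 (z.1.1 v) = c.1 * z.1.2 v) ∧ c.1 ^ (Q + 1) = 1 ∧ c.2 ^ (Q - 1) = algebraMap F L ε ∧
        ∀ a b, Φ.B (z.1.2.symm a) (z.1.2.symm b) = Algebra.trace F L (c.2 * (b ^ Q * a)) := by
    rintro ⟨⟨s, e⟩, hs, u, hu⟩
    obtain ⟨Q', κ, hQ', h3, h4, h5, h6⟩ := exists_kappa hΦ h2L hs.1 e hu (gen_of_frame hs.2 e u hu)
    have hQQ : Q' = Q := Nat.pow_left_injective two_ne_zero (hQ'.trans hQ.symm)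
    subst hQQ
    refine ⟨(u, κ), hu, h3, ?_, h6⟩
    apply mul_right_cancel₀ h4
    show κ ^ (Q' - 1) * κ = _
    rw [← pow_succ, Nat.sub_add_cancel (by omega), h5]
  choose c hc1 hc2 hc3 hc4 using hex
  have hup : Nat.card {z : (V ≃ₗ[F] V) × (V ≃ₗ[F] L) // z.1 ∈ Φ.Bm ∧ ∃ u : L, ∀ v, z.2 (z.1 v) = u * z.2 v} ≤
      Nat.card Φ.Iso * Nat.card ({x : L // x ^ (Q + 1) = 1} × {x : L // x ^ (Q - 1) = algebraMap F L ε}) := by
    refine card_le_of_fiber (fun z => (⟨(c z).1, hc2 z⟩, ⟨(c z).2, hc3 z⟩)) _ ?_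
    intro b
    by_cases hb : ∃ z₀, (fun z => ((⟨(c z).1, hc2 z⟩, ⟨(c z).2, hc3 z⟩) :
      {x : L // x ^ (Q + 1) = 1} × {x : L // x ^ (Q - 1) = algebraMap F L ε})) z₀ = b
    · obtain ⟨z₀, rfl⟩ := hb
      have hcc : ∀ z, (((⟨(c z).1, hc2 z⟩, ⟨(c z).2, hc3 z⟩) :
          {x : L // x ^ (Q + 1) = 1} × {x : L // x ^ (Q - 1) = algebraMap F L ε}) =
          (⟨(c z₀).1, hc2 z₀⟩, ⟨(c z₀).2, hc3 z₀⟩)) → (c z).1 = (c z₀).1 ∧ (c z).2 = (c z₀).2 := by
        intro z hz
        have h3 := (Prod.mk.inj hz).1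
        have h4 := (Prod.mk.inj hz).2
        exact ⟨congrArg Subtype.val h3, congrArg Subtype.val h4⟩
      refine Nat.card_le_card_of_injective (fun z => (⟨z.1.1.2 ≪≫ₗ z₀.1.2.symm, ?_⟩ : Φ.Iso)) ?_
      · obtain ⟨h3, h4⟩ := hcc z.1 z.2
        refine mem_iso_of_eq hΦ h2 z.1.2.1 z₀.2.1.1 z.1.1.2 z₀.1.2 (hc1 z.1) ?_ ?_
        · rw [h3]; exact hc1 z₀
        · intro a b
          rw [hc4 z.1, hc4 z₀, h4]
      · intro z z' hzz
        have h3 : z.1.1.2 ≪≫ₗ z₀.1.2.symm = z'.1.1.2 ≪≫ₗ z₀.1.2.symm := congrArg Subtype.val hzz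
        have h4 : z.1.1.2 = z'.1.1.2 := by
          ext v
          have h5 := LinearEquiv.congr_fun h3 v
          exact z₀.1.2.symm.injective h5
        have h5 : z.1.1.1 = z'.1.1.1 := by
          ext v
          apply z.1.1.2.injective
          rw [hc1 z.1, (hcc z.1 z.2).1, h4, hc1 z'.1, (hcc z'.1 z'.2).1]
        exact Subtype.ext (Subtype.ext (Prod.ext h5 h4))
    · have h3 : IsEmpty {z // (fun z => ((⟨(c z).1, hc2 z⟩, ⟨(c z).2, hc3 z⟩) :
          {x : L // x ^ (Q + 1) = 1} × {x : L // x ^ (Q - 1) = algebraMap F L ε})) z = b} :=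
        ⟨fun z => hb ⟨z.1, z.2⟩⟩
      rw [Nat.card_of_isEmpty]
      exact Nat.zero_le _
  have hlow : Nat.card Φ.Bm * (finrank F V * Nat.card Lˣ) ≤
      Nat.card {z : (V ≃ₗ[F] V) × (V ≃ₗ[F] L) // z.1 ∈ Φ.Bm ∧ ∃ u : L, ∀ v, z.2 (z.1 v) = u * z.2 v} := by
    have h3 : Nat.card {z : (V ≃ₗ[F] V) × (V ≃ₗ[F] L) // z.1 ∈ Φ.Bm ∧ ∃ u : L, ∀ v, z.2 (z.1 v) = u * z.2 v} =
        Nat.card (Σ s : Φ.Bm, {e : V ≃ₗ[F] L // ∃ u : L, ∀ v, e ((s : V ≃ₗ[F] V) v) = u * e v}) :=
      Nat.card_congr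
        { toFun := fun z => ⟨⟨z.1.1, z.2.1⟩, z.1.2, z.2.2⟩
          invFun := fun z => ⟨(z.1.1, z.2.1), z.1.2, z.2.2⟩
          left_inv := fun z => rfl
          right_inv := fun z => rfl }
    have := Fintype.ofFinite Φ.Bm
    rw [h3, Nat.card_sigma]
    calc Nat.card Φ.Bm * (finrank F V * Nat.card Lˣ) = ∑ _s : Φ.Bm, finrank F V * Nat.card Lˣ := by
          rw [Finset.sum_const, Finset.card_univ, smul_eq_mul, Nat.card_eq_fintype_card]
      _ ≤ _ := Finset.sum_le_sum fun s _ => card_frames hL s.2.2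
  have hβ : Nat.card ({x : L // x ^ (Q + 1) = 1} × {x : L // x ^ (Q - 1) = algebraMap F L ε}) ≤ Nat.card Lˣ := by
    rw [Nat.card_prod, Nat.card_units, ← hQ]
    refine (Nat.mul_le_mul (card_roots_le (by omega) _) (card_roots_le (by omega) _)).trans (le_of_eq ?_)
    obtain ⟨k, rfl⟩ : ∃ k, Q = k + 1 := ⟨Q - 1, by omega⟩
    rw [Nat.add_sub_cancel]
    have h3 : (k + 1) ^ 2 = (k + 1 + 1) * k + 1 := by ring
    rw [h3, Nat.add_sub_cancel]
  have hpos : 0 < Nat.card Lˣ := Nat.card_pos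
  have h3 : (finrank F V * Nat.card Φ.Bm) * Nat.card Lˣ ≤ Nat.card Φ.Iso * Nat.card Lˣ := by
    calc (finrank F V * Nat.card Φ.Bm) * Nat.card Lˣ = Nat.card Φ.Bm * (finrank F V * Nat.card Lˣ) := by ring
      _ ≤ _ := hlow.trans (hup.trans (Nat.mul_le_mul_left _ hβ))
  exact Nat.le_of_mul_le_mul_right h3 hpos

end

section

variable {F V : Type*} [Field F] [Finite F] [AddCommGroup V] [Module F V] [FiniteDimensional F V]

/-- **UT2b.** The number of irreducible isometries of a nondegenerate space of dimension `d ≥ 1` is at most `|Iso| / d`. -/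
theorem card_Bm_le {Φ : Frm F V} (h : IsSp Φ ∨ (∃ r, IsHerm r Φ) ∨ ∃ Q : QuadraticForm F V, Φ.Nd ∧ Φ = frmQ Q) :
    finrank F V * Nat.card Φ.Bm ≤ Nat.card Φ.Iso := by
  have hfin : Finite (V ≃ₗ[F] V) := by
    have hVfin : Finite V := Module.finite_of_finite F
    exact finite_equiv' F V
  rcases Nat.lt_or_ge (finrank F V) 2 with hlt | h2
  · have h1 : Nat.card Φ.Bm ≤ Nat.card Φ.Iso :=
      Nat.card_le_card_of_injective (fun z : Φ.Bm => (⟨z.1, z.2.1⟩ : Φ.Iso)) (by
        intro a b hab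
        exact Subtype.ext (congrArg (fun w : Φ.Iso => (w : V ≃ₗ[F] V)) hab))
    calc finrank F V * Nat.card Φ.Bm ≤ 1 * Nat.card Φ.Bm := Nat.mul_le_mul_right _ (by omega)
      _ ≤ _ := by rw [one_mul]; exact h1
  · obtain ⟨ε, r, hΦ⟩ := ty_of h
    obtain ⟨p, hp⟩ := CharP.exists F
    have hpf : Fact p.Prime := ⟨CharP.char_is_prime F p⟩
    have hd0 : NeZero (finrank F V) := ⟨by omega⟩
    exact card_Bm_le_aux (L := FiniteField.Extension F p (finrank F V)) hΦ h2 (FiniteField.finrank_extension F p _)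

end

end Cfsg.Agent.H232.Ux
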